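import Cfsg.Agent.H863.U33.Inst

/-!
# S5525: link words (helper863, helper840)

`c⁻¹ (f τ) c = y1`, `l⁻¹ y1 l = x27`, `l⁻¹ e0 l = f`, `s⁻¹ pB s = y1`, `s⁻¹ y1 s ∈ P1`.
-/

set_option autoImplicit false
set_option Elab.async false

namespace Cfsg.Agent.H863.U33

open Cfsg.Agent.BabyM.Conc Cfsg.Agent.BabyM.Inst Cfsg.Agent.BabyM.TransInv Cfsg.Agent.H819.U33 Cfsg.Agent.BM.StageW

/-- `c` -/
def wc : List Ltr :=
  [.y1, .p4, .hi, .p10, .xii, .taui, .X0, .X4, .Z5, .xi, .p5, .h, .p8, .y4, .p8]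

/-- `l` -/
def wl : List Ltr :=
  [.xi, .p4, .h, .y10, .p7, .xii, .hi, .p4, .y4, .p10, .Z5, .Z2, .Z1, .X9, .X8, .X5, .X1, .tau, .X4, .y7, .p8,
  .xii, .p6, .xi, .y3, .p2, .y7, .xii, .y4, .taui]

/-- `s` -/
def wsw : List Ltr :=
  [.X0, .X1, .X2, .X3, .X4, .X5, .X6, .X7, .X9, .Z1, .Z2, .Z3, .Z4, .Z8, .Z9, .p10, .y9, .xii, .y9, .y1, .xii,
  .p, .y1, .xi, .p4, .h, .y10, .p7, .xii, .hi, .p4, .y4, .p10, .Z5, .Z2, .Z1, .X9, .X8, .X5, .X1, .tau, .X4,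
  .y7, .p8, .xii, .p6, .xi, .y3, .p2, .y7, .xii, .y4, .taui, .p5, .y5, .p6, .Z0, .Z4, .Z7, .p4, .y4, .y9, .p7,
  .Z7, .X8, .X5, .X4, .X1, .X0, .taui, .y4, .xi, .y7, .p9, .y3, .xii, .p5, .xi, .p3, .y7, .X4, .taui, .X1, .X5,
  .X8, .X9, .Z1, .Z2, .Z5, .p, .y4, .p7, .h, .xi, .p4, .y10, .hi, .p7, .xii]

/-- half of the word of `x27` -/
def wx27h : List Ltr :=
  [.X10, .X0, .X1, .X4, .X5, .X8, .Z2, .Z9, .y4, .xi, .y7, .p9, .y3, .xii, .p5, .xi, .p3, .y7, .X4, .taui, .X4,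
  .y7, .p8, .xii, .p6, .xi, .y3, .p2, .y7, .xii, .y4, .X3, .X4, .X5, .X6, .Z5, .z, .tau]

/-- the word of `x27` -/
def wx27 : List Ltr := wx27h ++ wx27h

/-- the coordinates of `s⁻¹ y1 s` -/
def vS : Fin 8 → ZMod 3 := ![0, 0, 0, 1, 2, 0, 0, 1]

theorem c_c : chk (wy ++ wc) (wc ++ wy1) = true := by decide +kernel

theorem c_l1 : chk (wy1 ++ wl) (wl ++ wx27) = true := by decide +kernel

theorem c_l2 : chk (we0 ++ wl) (wl ++ wf) = true := by decide +kernel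

theorem c_s1 : chk (nfw vB 0 ++ wsw) (wsw ++ wy1) = true := by decide +kernel

theorem c_s2 : chk (wy1 ++ wsw) (wsw ++ nfw vS 2) = true := by decide +kernel

theorem of_comm {a b c : List Ltr} (h : chk (a ++ b) (b ++ c) = true) : (g b)⁻¹ * g a * g b = g c := by
  have h1 := eq_of h
  rw [g_append, g_append] at h1
  rw [mul_assoc, h1, inv_mul_cancel_left]

/-- the element `pB` of class 3B in `P1` -/
noncomputable def pB : G := nf (g wy1) eG vB 0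

/-- the element `x27` -/
noncomputable def x27 : G := g wx27

theorem hc : (g wc)⁻¹ * g wy * g wc = g wy1 := of_comm c_c

theorem hl1 : (g wl)⁻¹ * g wy1 * g wl = x27 := of_comm c_l1

theorem hl2 : (g wl)⁻¹ * eG 0 * g wl = g wf := of_comm c_l2

theorem hs1 : (g wsw)⁻¹ * pB * g wsw = g wy1 := by
  unfold pB
  rw [← g_nfw]
  exact of_comm c_s1

theorem hs2' : (g wsw)⁻¹ * g wy1 * g wsw = nf (g wy1) eG vS 2 := by
  rw [← g_nfw]
  exact of_comm c_s2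

theorem nf_mem' (v : Fin 8 → ZMod 3) (b : ZMod 3) : nf (g wy1) eG v b ∈ PP (g wy1) eG := by
  have hy : g wy1 ∈ PP (g wy1) eG := Subgroup.subset_closure (Or.inl rfl)
  have he : ∀ j, eG j ∈ PP (g wy1) eG := fun j => Subgroup.subset_closure (Or.inr ⟨j, rfl⟩)
  unfold nf
  exact mul_mem (mul_mem (mul_mem (mul_mem (mul_mem (mul_mem (mul_mem (mul_mem (pow_mem (he _) _) (pow_mem (he _) _))
    (pow_mem (he _) _)) (pow_mem (he _) _)) (pow_mem (he _) _)) (pow_mem (he _) _)) (pow_mem (he _) _))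
    (pow_mem (he _) _)) (pow_mem hy _)

theorem hs2 : (g wsw)⁻¹ * g wy1 * g wsw ∈ PP (g wy1) eG := by
  rw [hs2']
  exact nf_mem' _ _

end Cfsg.Agent.H863.U33
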